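import Cfsg.Agent.H684.EB.EvenS
import Cfsg.Agent.H611.EB.Odd
import Cfsg.Agent.H610.EB.Cyc
import Cfsg.Agent.H694.EB.Two
import Cfsg.Agent.H104.EB.COne
import Cfsg.Agent.SignalizersComponents.BalEndSz

/-!
# `EvenS S` implies `EvenJ S` if every automorphism has an inner power with odd exponent

* `evenJ_of_evenS_odd`: no invariance of the character is needed;
* `evenJ_of_odd_out`: the same with `|Aut S : Inn S|` odd;
* `dz_of_cit`, `dz_sz`: `DZ S` if the centralizers of the involutions are 2-groups; the groups of Suzuki.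
-/

set_option autoImplicit false
set_option linter.unusedSectionVars false
set_option linter.style.haveILetI false

namespace Cfsg.Agent.H694.EB

open Cfsg Cfsg.Agent.H610.EB Cfsg.Agent.H684.EB
open scoped ComplexConjugate
open Cfsg.Agent.Characters.Core

universe u

/-- A normal subgroup with trivial centralizer has odd index if its automorphisms are inner up to odd powers. -/
theorem index_odd_of_aut {S : Type u} [Group S]
    (hout : ∀ α : S ≃* S, ∃ m : ℕ, Odd m ∧ ∃ s : S, ∀ x : S, ((α : MulAut S) ^ m) x = s * x * s⁻¹)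
    {G : Type u} [Group G] [Finite G] (N : Subgroup G) [hN : N.Normal] (e : S ≃* N)
    (hC : Subgroup.centralizer (N : Set G) = ⊥) : Odd N.index := by
  have key : ∀ g : G, ∃ m : ℕ, Odd m ∧ g ^ m ∈ N := by
    intro g
    let α : S ≃* S := (e.trans (MulAut.conjNormal g : MulAut N)).trans e.symm
    have hα : ∀ x : S, (e (α x) : G) = g * e x * g⁻¹ := by
      intro x
      show ((e (e.symm ((MulAut.conjNormal g : MulAut N) (e x))) : N) : G) = _
      rw [MulEquiv.apply_symm_apply, MulAut.conjNormal_apply]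
    have hpow : ∀ (m : ℕ) (x : S), (e (((α : MulAut S) ^ m) x) : G) = g ^ m * e x * (g ^ m)⁻¹ := by
      intro m
      induction m with
      | zero =>
        intro x
        simp
      | succ m ih =>
        intro x
        rw [pow_succ, MulAut.mul_apply, ih, show ((α : MulAut S) x) = α x from rfl, hα, pow_succ]
        group
    obtain ⟨m, hm, s, hs⟩ := hout α
    refine ⟨m, hm, ?_⟩
    have h2 : (e s : G)⁻¹ * g ^ m ∈ Subgroup.centralizer (N : Set G) := by
      rw [Subgroup.mem_centralizer_iff]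
      intro n hn
      obtain ⟨x, hx⟩ := e.surjective ⟨n, hn⟩
      have h3 := hpow m x
      rw [hs x, map_mul, map_mul, map_inv, hx] at h3
      have h4 : (e s : G) * n * (e s : G)⁻¹ = g ^ m * n * (g ^ m)⁻¹ := h3
      have h5 : n = (e s : G)⁻¹ * ((e s : G) * n * (e s : G)⁻¹) * e s := by group
      rw [h4] at h5
      calc n * ((e s : G)⁻¹ * g ^ m)
          = (e s : G)⁻¹ * (g ^ m * n * (g ^ m)⁻¹) * e s * ((e s : G)⁻¹ * g ^ m) := by
            rw [← h5]
        _ = (e s : G)⁻¹ * g ^ m * n := by group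
    rw [hC, Subgroup.mem_bot] at h2
    rw [← inv_mul_eq_one.1 h2]
    exact (e s).2
  rw [← Nat.not_even_iff_odd, even_iff_two_dvd]
  intro hdvd
  haveI : Fact (Nat.Prime 2) := ⟨Nat.prime_two⟩
  have hdvd' : 2 ∣ Nat.card (G ⧸ N) := hdvd
  obtain ⟨x, hx⟩ := exists_prime_orderOf_dvd_card' 2 hdvd'
  obtain ⟨g, rfl⟩ := QuotientGroup.mk_surjective x
  obtain ⟨m, hm, hgm⟩ := key g
  have h1 : (QuotientGroup.mk g : G ⧸ N) ^ m = 1 := by
    rw [← QuotientGroup.mk_pow]
    exact (QuotientGroup.eq_one_iff _).2 hgm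
  have h2 := orderOf_dvd_of_pow_eq_one h1
  rw [hx] at h2
  exact Nat.not_even_iff_odd.2 hm (even_iff_two_dvd.2 h2)

/-- **`EvenS` implies `EvenJ` if all automorphisms are inner up to odd powers.** -/
theorem evenJ_of_evenS_odd {S : Type u} [Group S] (h : EvenS S)
    (hout : ∀ α : S ≃* S, ∃ m : ℕ, Odd m ∧ ∃ s : S, ∀ x : S, ((α : MulAut S) ^ m) x = s * x * s⁻¹) :
    EvenJ S := by
  classical
  rintro G _ _ N hN _ ⟨e⟩ hC J _ - - - k hk M hM
  have hidx := index_odd_of_aut hout N e hC
  obtain ⟨φ, hφ, heven, hφk, -⟩ := (EvenS.congr e h) k (hk.sub N) M hM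
  obtain ⟨χ, hover, hχk⟩ := H611.EB.exists_over hk N hidx φ hφk
  have hE := (H611.EB.over_parity hk N hidx χ hχk φ hover).2.2 heven
  refine ⟨χ, (H611.EB.mem_iff hM hk N hidx χ hχk φ hover).2 hφ, hE, hχk, ?_⟩
  by_contra hne
  let triv : IrrCharacter N := ⟨1, isIrr_one⟩
  let trivG : IrrCharacter G := ⟨1, isIrr_one⟩
  have h1 : χ = trivG := by
    refine H611.EB.unique_over hk N hidx triv χ trivG hχk (fun g => rfl) hne ?_
    have h2 : classInner (fun n : N => (trivG : G → ℂ) n) (triv : N → ℂ) = 1 :=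
      classInner_irr_self isIrr_one
    rw [h2]
    exact one_ne_zero
  rw [h1] at hE
  exact ne_one_of_even hE rfl

/-- **`EvenS` implies `EvenJ` if `|Aut S : Inn S|` is odd.** -/
theorem evenJ_of_odd_out {S : Type u} [Group S] [Finite S] (h : EvenS S)
    (hodd : Odd (MulAut.conj : S →* MulAut S).range.index) : EvenJ S := by
  refine evenJ_of_evenS_odd h fun α => ⟨_, hodd, ?_⟩
  haveI : (MulAut.conj : S →* MulAut S).range.Normal := by
    refine ⟨?_⟩
    rintro _ ⟨s, rfl⟩ β
    refine ⟨β s, ?_⟩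
    ext x
    simp [MulAut.mul_apply, map_mul]
  obtain ⟨s, hs⟩ := (Subgroup.pow_index_mem (MulAut.conj : S →* MulAut S).range (α : MulAut S) :
    (α : MulAut S) ^ _ ∈ (MulAut.conj : S →* MulAut S).range)
  refine ⟨s, fun x => ?_⟩
  rw [← hs, MulAut.conj_apply]

/-! ### Groups in which the centralizers of the involutions are 2-groups -/

/-- The centralizers of the involutions are 2-groups. -/
theorem dz_of_cit {S : Type u} [Group S] [Finite S]
    (h : ∀ t : S, orderOf t = 2 → IsPGroup 2 (Subgroup.centralizer ({t} : Set S))) : DZ S := by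
  intro _ M hM χ hχ
  refine H104.EB.COne.defectZero_of_charTwo hM (fun t ht => ⟨⊤, inferInstance, ?_, le_top⟩) χ hχ
  exact (h t ht).to_subgroup ⊤

/-- **`DZ` for the groups of Suzuki.** -/
theorem dz_sz {S : Type u} [Group S] [Finite S] (h : Lie.IsoSuzuki S) : DZ S :=
  dz_of_cit fun _ ht => SignalizersComponents.BalEndSz.isPGroup_centralizer_suzuki h ht

end Cfsg.Agent.H694.EB
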