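import Cfsg.Agent.H694.EB.TwoChain
import Cfsg.Agent.H694.EB.TwoP
import Cfsg.Agent.H694.DTypes
import Cfsg.Agent.H62.EbVK
import Cfsg.Agent.H568.EB.RegF4
import Cfsg.Agent.H568.EB.RegE6

/-!
# Characteristic two: criterion (T) for root group data; relative types `F₄` and `E₆`
-/

set_option autoImplicit false

namespace Cfsg.Agent.H694.EB

open Cfsg Cfsg.Agent.H694 Cfsg.Agent.H684.EB
open CoxeterSystem Cfsg.Agent.ChevalleyStructure.CoxeterGeom Cfsg.Agent.Tits.Roots Cfsg.Agent.Tits.Core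
  Cfsg.Agent.Nodes.Comb Cfsg.Agent.Nodes.Reps Cfsg.Agent.Nodes.BNOf Cfsg.Agent.FixBN Cfsg.Agent.Nodes
open Cfsg.Agent.Omega.ML.Ex.Typ (HasSplitT HasRGDT)

universe u

/-- `U` is a Sylow 2-subgroup of a group with a split (B,N)-pair of characteristic two. -/
theorem index_U_odd {K : Type*} [Group K] [Finite K] {P : Cfsg.BNPair K} {U : Subgroup K}
    (S : Split P 2 U) : Odd U.index := by
  have h2 : Fact (Nat.Prime 2) := ⟨Nat.prime_two⟩
  have hB : Odd P.B.index := Nat.odd_iff.2 (OfBN.card_modEq S)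
  have hn : (U.subgroupOf P.B).Normal := by
    refine ⟨fun u hu b => ?_⟩
    rw [Subgroup.mem_subgroupOf] at hu ⊢
    exact S.norm b b.2 u hu
  obtain ⟨m, hm, ht⟩ := S.tor
  have hBU : Odd (U.subgroupOf P.B).index := by
    rw [← Nat.not_even_iff_odd, even_iff_two_dvd]
    intro hdvd
    have hdvd' : 2 ∣ Nat.card (P.B ⧸ U.subgroupOf P.B) := hdvd
    obtain ⟨x, hx⟩ := exists_prime_orderOf_dvd_card' 2 hdvd'
    obtain ⟨b, rfl⟩ := QuotientGroup.mk_surjective x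
    obtain ⟨u, hu, t, htT, hb⟩ := S.cover' b.2
    have hq : (QuotientGroup.mk b : P.B ⧸ U.subgroupOf P.B) =
        QuotientGroup.mk (⟨t, (Subgroup.mem_inf.1 htT).1⟩ : P.B) := by
      rw [QuotientGroup.eq, Subgroup.mem_subgroupOf]
      show (b : K)⁻¹ * t ∈ U
      have h3 : (b : K)⁻¹ * t = t⁻¹ * u⁻¹ * t⁻¹⁻¹ := by rw [hb]; group
      rw [h3]
      exact S.norm _ (inv_mem (Subgroup.mem_inf.1 htT).1) _ (inv_mem hu)
    have h4 : (QuotientGroup.mk b : P.B ⧸ U.subgroupOf P.B) ^ m = 1 := by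
      rw [hq, ← QuotientGroup.mk_pow]
      have h5 : (⟨t, (Subgroup.mem_inf.1 htT).1⟩ : P.B) ^ m = 1 :=
        Subtype.ext (ht t (Subgroup.mem_inf.1 htT).1 (Subgroup.mem_inf.1 htT).2)
      rw [h5]
      rfl
    have h6 := orderOf_dvd_of_pow_eq_one h4
    rw [hx] at h6
    exact hm h6
  have h3 : U.relIndex P.B * P.B.index = U.index := Subgroup.relIndex_mul_index S.le
  rw [← h3]
  exact Odd.mul hBU hB

section

variable {I W Y : Type*} [Fintype I] [DecidableEq I] [Group W] [Group Y] {M : CoxeterMatrix I}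
  {cs : CoxeterSystem M W} {A : I → I → ℤ} {h : IsCartan M A} {T : Subgroup Y} {n : I → Y}
  {X : (I → ℤ) → Subgroup Y}

theorem VK_ne [Finite W] [Finite Y] (R : RGD cs h 2 T n X) {K : Set I} (hK : K.Nonempty) :
    H62.EbVK.VK cs h X K ≠ RGD.Sup X (RGD.Pos cs h) := by
  obtain ⟨i, hi⟩ := hK
  intro he
  obtain ⟨x, hx, hx1⟩ := Cfsg.Agent.Nodes.Bruhat.exists_ne_one R i
  refine H62.EbVK.not_mem_V R hx hx1 (H62.EbVK.VK_le_V hi ?_)
  rw [he]
  exact RGD.le_Sup (S := RGD.Pos cs h) ⟨isRoot_sr cs h i, sr_nonneg i⟩ hx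

end

/-- **Criterion (T) for root group data.** -/
theorem evenJ_of_reg {l : ℕ} (hl : 0 < l) {M : CoxeterMatrix (Fin l)} {S : Type u} [Group S]
    [Finite S] [IsSimpleGroup S] (hG : HasRGDT 2 M S) (hdz : DZ S) (K : Set (Fin l))
    (hK0 : K.Nonempty) (hK : ∀ σ : Fin l ≃ Fin l, (∀ i j, M (σ i) (σ j) = M i j) → σ '' K = K)
    (hodd : ∀ (W : Type) [Group W] [Finite W] (cs : CoxeterSystem M W),
      Odd (Nat.card {w : W // Reg cs K w})) : EvenJ S := by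
  obtain ⟨A, h, T, n, X, hW, R, hX⟩ := hG
  have hgen := RGDLib.rgd_gen_of_G1 R hX
  have hne : (R.bnPair hgen).S.Nonempty := ⟨n ⟨0, hl⟩, _, rfl⟩
  have hS := SplitRGD.split_of_rgd Nat.prime_two R hgen
    (Cfsg.Agent.Tits.OfBN.normalCore_eq_bot (R.bnPair hgen) hne)
  refine evenJ_of_two hdz (RGD.Sup X (RGD.Pos M.toCoxeterSystem h))
    (H62.EbVK.VK M.toCoxeterSystem h X K) R.isPGroup_Upos (index_U_odd hS)
    (H62.EbVK.VK_le_U K) (VK_ne R hK0) (fun α hα => H62.EbVK.VK_stable R hX K hK α hα) ?_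
  rw [Nat.odd_iff, H62.EbVK.card_VK R hX K, ← Nat.odd_iff]
  exact hodd M.Group M.toCoxeterSystem

variable {S : Type u} [Group S] [Finite S] [IsSimpleGroup S]

/-- relative type `F₄` : `F₄(2^a)`, `²E₆(2^a)` -/
theorem evenJ_two_F4 (hG : HasRGDT 2 CoxeterMatrix.F₄ S) (hdz : DZ S) : EvenJ S := by
  refine evenJ_of_reg (by norm_num) hG hdz {i | (i : ℕ) = 1 ∨ (i : ℕ) = 2} ⟨1, Or.inl rfl⟩ ?_
    (fun W _ _ cs => H568.EB.reg_F4 cs)
  intro σ hσ
  have h1 : {i : Fin 4 | (i : ℕ) = 1 ∨ (i : ℕ) = 2} = {i : Fin 4 | i = 0 ∨ i = 3}ᶜ := by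
    ext i
    show ((i : ℕ) = 1 ∨ (i : ℕ) = 2) ↔ ¬ (i = 0 ∨ i = 3)
    revert i
    decide
  rw [h1]
  refine image_compl_eq σ _ fun i hi => ?_
  show σ i = 0 ∨ σ i = 3
  have hi' : i = 0 ∨ i = 3 := hi
  clear h1 hi
  by_contra hcon
  have h4 : ∀ x : Fin 4, ¬ (x = 0 ∨ x = 3) →
      CoxeterMatrix.F₄ x 1 = 4 ∨ CoxeterMatrix.F₄ x 2 = 4 := by decide
  obtain ⟨j, hj⟩ : ∃ j, CoxeterMatrix.F₄ (σ i) j = 4 := by
    rcases h4 _ hcon with h5 | h5
    · exact ⟨_, h5⟩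
    · exact ⟨_, h5⟩
  obtain ⟨k, rfl⟩ := σ.surjective j
  rw [hσ] at hj
  revert hj
  rcases hi' with rfl | rfl <;> revert k <;> decide

/-- type `E₆` -/
theorem evenJ_two_E6 (hG : HasRGDT 2 CoxeterMatrix.E₆ S) (hdz : DZ S) : EvenJ S := by
  refine evenJ_of_reg (by norm_num) hG hdz {i | (i : ℕ) ≠ 3} ⟨0, by
    show ((0 : Fin 6) : ℕ) ≠ 3
    decide⟩ ?_ (fun W _ _ cs => H568.EB.reg_E6 cs)
  intro σ hσ
  have h1 : {i : Fin 6 | (i : ℕ) ≠ 3} = {i : Fin 6 | i = 3}ᶜ := by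
    ext i
    show (i : ℕ) ≠ 3 ↔ ¬ (i = 3)
    revert i
    decide
  rw [h1]
  refine image_compl_eq σ _ fun i hi => ?_
  have hi' : i = 3 := hi
  have h2 := wk_inv σ hσ 1 i
  subst hi'
  revert h2
  generalize σ 3 = x
  show wk CoxeterMatrix.E₆ 1 x = wk CoxeterMatrix.E₆ 1 3 → x = 3
  revert x
  decide +kernel

end Cfsg.Agent.H694.EB
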