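import Cfsg.Agent.H694.EB.TwoExt
import Cfsg.Agent.H694.EB.Two
import Cfsg.Agent.H694.DGood
import Cfsg.Agent.S0190

/-!
# Criterion (T): a normal subgroup of a Sylow 2-subgroup with an odd number of double cosets
-/

set_option autoImplicit false
set_option linter.unusedSectionVars false
set_option linter.style.haveILetI false

namespace Cfsg.Agent.H694.EB

open Cfsg Cfsg.Agent.Characters Cfsg.Agent.H694 Cfsg.Agent.H684.EB Cfsg.Agent.H610.EB
open Cfsg.Agent.H610
open scoped ComplexConjugate
open Cfsg.Agent.Characters.Core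
open Cfsg.Agent.OddOrderCharacters.NormalInduced (conjFn)
open Cfsg.Agent.OddOrderCharacters.PF9.CliffGen (resTo irr_ind)
open Cfsg.Agent.Blocks.Local Cfsg.Agent.Blocks.Basic
open Cfsg.Agent.Blocks.Covering (conjIrr conjIrr_apply)
open Cfsg.Agent.OddOrderCharacters.InducedNormal (extendByZero_mem extendByZero_not_mem)

universe u

section one

variable {N : Type u} [Group N] [Fintype N] (V : Subgroup N)

/-- The permutation character on the cosets of `V`. -/
noncomputable def psi : N → ℂ := indFun V (fun _ => (1 : ℂ))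

theorem gc_psi : GC (psi V) := by
  haveI : Fintype V := Fintype.ofFinite _
  exact (GC.of_isCharacter (isIrr_isCharacter isIrrCharacter_one)).indFun V

theorem psi_pow {k : ℕ} (hk : IsK N k) (n : N) : psi V (n ^ k) = psi V n :=
  indFun_pow V hk (fun _ => rfl) n

theorem psi_one : psi V 1 = (V.index : ℂ) := by
  haveI : Fintype V := Fintype.ofFinite _
  unfold psi
  rw [Cfsg.Agent.OddOrderCharacters.IndRes.indFun_apply_one, mul_one]

/-- invariance under the automorphisms preserving `V` -/
theorem psi_of_map (β : N ≃* N) (hβ : V.map β.toMonoidHom = V) (n : N) : psi V (β n) = psi V n := by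
  have hm : ∀ s : N, s ∈ V ↔ β s ∈ V := by
    intro s
    constructor
    · intro hs
      rw [← hβ]
      exact ⟨s, hs, rfl⟩
    · intro hs
      rw [← hβ] at hs
      obtain ⟨t, ht, hts⟩ := hs
      have h1 : t = s := β.injective hts
      rwa [← h1]
  unfold psi indFun
  congr 1
  refine Fintype.sum_equiv β.symm.toEquiv _ _ fun x => ?_
  show extendByZero V (fun _ => (1 : ℂ)) (x⁻¹ * β n * x) =
    extendByZero V (fun _ => (1 : ℂ)) ((β.symm x)⁻¹ * n * β.symm x)
  have h1 : β ((β.symm x)⁻¹ * n * β.symm x) = x⁻¹ * β n * x := by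
    rw [map_mul, map_mul, map_inv, MulEquiv.apply_symm_apply]
  rw [← h1]
  by_cases h2 : (β.symm x)⁻¹ * n * β.symm x ∈ V
  · rw [extendByZero_mem V _ ((hm _).1 h2), extendByZero_mem V _ h2]
  · rw [extendByZero_not_mem V _ (fun h => h2 ((hm _).2 h)), extendByZero_not_mem V _ h2]

/-- A Sylow 2-subgroup is moved back by an inner automorphism. -/
theorem exists_conj_sylow (U : Subgroup N) (hU : IsPGroup 2 U) (hUi : Odd U.index) (α : N ≃* N) :
    ∃ n : N, U.map (α.trans (MulAut.conj n : N ≃* N)).toMonoidHom = U := by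
  haveI : Fact (Nat.Prime 2) := ⟨Nat.prime_two⟩
  let Q : Sylow 2 N := hU.toSylow (fun h => (Nat.not_even_iff_odd.2 hUi) (even_iff_two_dvd.2 h))
  obtain ⟨n, hn⟩ := MulAction.exists_smul_eq N ((α : MulAut N) • Q) Q
  refine ⟨n, ?_⟩
  have h1 : ((n • ((α : MulAut N) • Q) : Sylow 2 N) : Subgroup N) = U := congrArg Sylow.toSubgroup hn
  have h2 : ((n • ((α : MulAut N) • Q) : Sylow 2 N) : Subgroup N) =
      (U.map α.toMonoidHom).map (MulAut.conj n).toMonoidHom := rfl
  rw [h2, Subgroup.map_map] at h1
  exact h1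

theorem psi_aut {U : Subgroup N} (hU : IsPGroup 2 U) (hUi : Odd U.index)
    (hV : ∀ α : N ≃* N, U.map α.toMonoidHom = U → V.map α.toMonoidHom = V) (α : N ≃* N) (n : N) :
    psi V (α n) = psi V n := by
  obtain ⟨m, hm⟩ := exists_conj_sylow U hU hUi α
  have h1 := psi_of_map V _ (hV _ hm) n
  rw [← h1]
  exact ((gc_psi V).cf (α n) m).symm

/-- the number of double cosets -/
theorem norm_psi : classInner (psi V) (psi V) =
    (Nat.card (DoubleCoset.Quotient (V : Set N) (V : Set N)) : ℂ) := by
  have h1 : permC N (N ⧸ V) = psi V := by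
    have h2 := Cfsg.Agent.S0190.result (G := N) (N ⧸ V) (QuotientGroup.mk 1 : N ⧸ V)
    have h3 : MulAction.stabilizer N (QuotientGroup.mk 1 : N ⧸ V) = V :=
      MulAction.stabilizer_quotient V
    have key : ∀ K : Subgroup N, K = V → indFun K (fun _ => (1 : ℂ)) = psi V := by
      rintro K rfl
      rfl
    rw [key _ h3] at h2
    exact h2
  rw [← h1, classInner_permC]
  congr 1
  -- the orbits on pairs
  let f : (N ⧸ V) × (N ⧸ V) → DoubleCoset.Quotient (V : Set N) (V : Set N) := fun p =>
    Quotient.liftOn₂' p.1 p.2 (fun x y => DoubleCoset.mk V V (x⁻¹ * y)) (by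
      intro a b a' b' h2 h3
      have h2' := QuotientGroup.leftRel_apply.1 h2
      have h3' := QuotientGroup.leftRel_apply.1 h3
      rw [DoubleCoset.eq]
      refine ⟨(a⁻¹ * a')⁻¹, V.inv_mem h2', b⁻¹ * b', h3', by group⟩)
  have hf : ∀ x y : N, f (QuotientGroup.mk x, QuotientGroup.mk y) = DoubleCoset.mk V V (x⁻¹ * y) :=
    fun _ _ => rfl
  refine Nat.card_congr (Equiv.ofBijective (Quotient.lift f ?_) ⟨?_, ?_⟩)
  · rintro ⟨a, b⟩ ⟨a', b'⟩ h2
    induction a using QuotientGroup.induction_on with
    | _ a =>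
    induction b using QuotientGroup.induction_on with
    | _ b =>
    induction a' using QuotientGroup.induction_on with
    | _ a' =>
    induction b' using QuotientGroup.induction_on with
    | _ b' =>
    obtain ⟨n, hn⟩ := h2
    have h3 : (QuotientGroup.mk a : N ⧸ V) = QuotientGroup.mk (n * a') :=
      (congrArg Prod.fst hn).symm
    have h4 : (QuotientGroup.mk b : N ⧸ V) = QuotientGroup.mk (n * b') :=
      (congrArg Prod.snd hn).symm
    rw [h3, h4, hf, hf]
    congr 1
    group
  · intro p q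
    induction p using Quotient.inductionOn with
    | _ p =>
    induction q using Quotient.inductionOn with
    | _ q =>
    obtain ⟨a, b⟩ := p
    obtain ⟨a', b'⟩ := q
    induction a using QuotientGroup.induction_on with
    | _ a =>
    induction b using QuotientGroup.induction_on with
    | _ b =>
    induction a' using QuotientGroup.induction_on with
    | _ a' =>
    induction b' using QuotientGroup.induction_on with
    | _ b' =>
    intro h2
    have h3 : DoubleCoset.mk V V (a⁻¹ * b) = DoubleCoset.mk V V (a'⁻¹ * b') := h2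
    rw [DoubleCoset.eq] at h3
    obtain ⟨v, hv, w, hw, h4⟩ := h3
    apply Quotient.sound
    refine ⟨a * v⁻¹ * a'⁻¹, Prod.ext ?_ ?_⟩
    · show (QuotientGroup.mk (a * v⁻¹ * a'⁻¹ * a') : N ⧸ V) = QuotientGroup.mk a
      rw [QuotientGroup.eq]
      have : (a * v⁻¹ * a'⁻¹ * a')⁻¹ * a = v := by group
      rw [this]
      exact hv
    · show (QuotientGroup.mk (a * v⁻¹ * a'⁻¹ * b') : N ⧸ V) = QuotientGroup.mk b
      rw [QuotientGroup.eq]
      have h5 : a * v⁻¹ * a'⁻¹ * b' = b * w := by
        have h6 : a'⁻¹ * b' = v * (a⁻¹ * b) * w := h4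
        have h7 : a * v⁻¹ * a'⁻¹ * b' = a * v⁻¹ * (a'⁻¹ * b') := by group
        rw [h7, h6]
        group
      rw [h5]
      have : (b * w)⁻¹ * b = w⁻¹ := by group
      rw [this]
      exact V.inv_mem hw
  · intro q
    induction q using Quotient.inductionOn with
    | _ g =>
    exact ⟨Quotient.mk _ (QuotientGroup.mk 1, QuotientGroup.mk g), by
      show DoubleCoset.mk V V ((1 : N)⁻¹ * g) = _
      rw [inv_one, one_mul]⟩

/-- Frobenius reciprocity for `psi`. -/
theorem psi_inner [Fintype V] {φ : N → ℂ} (hφ : IsClassFunction N φ) :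
    classInner (psi V) φ = classInner (fun _ : V => (1 : ℂ)) (fun v : V => φ v) :=
  Cfsg.Agent.OddOrderCharacters.Clifford.classInner_indFun V _ φ hφ

/-- The multiplicity of a character of defect zero. -/
theorem even_of_defectZero {U : Subgroup N} (hU : IsPGroup 2 U) (hUi : Odd U.index) (hVU : V ≤ U)
    (hne : V ≠ U) (φ : IrrCharacter N) (h0 : ∀ g : N, Even (orderOf g) → (φ : N → ℂ) g = 0)
    (hd : (Nat.card N).factorization 2 = (charDegree (φ : N → ℂ)).factorization 2) :
    Even (mu (psi V) (φ : N → ℂ)) := by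
  classical
  haveI : Fintype V := Fintype.ofFinite _
  have hVp : IsPGroup 2 V := hU.to_le hVU
  have h1 : ∀ v : V, v ≠ 1 → (φ : N → ℂ) v = 0 := by
    intro v hv
    apply h0
    obtain ⟨n, hn⟩ := hVp v
    obtain ⟨i, -, hi⟩ := (Nat.dvd_prime_pow Nat.prime_two).1 (orderOf_dvd_of_pow_eq_one hn)
    rw [Subgroup.orderOf_coe, hi]
    refine even_two.pow_of_ne_zero ?_
    rintro rfl
    rw [pow_zero, orderOf_eq_one_iff] at hi
    exact hv hi
  have h2 : classInner (psi V) (φ : N → ℂ) = (Nat.card V : ℂ)⁻¹ * charDegree (φ : N → ℂ) := by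
    rw [psi_inner V (isIrr_isClassFunction φ.2), Core.classInner_def]
    congr 1
    rw [Finset.sum_eq_single 1]
    · rw [one_mul]
      show conj ((φ : N → ℂ) 1) = _
      rw [irr_one_eq_charDegree φ.2, map_natCast]
    · intro v _ hv
      rw [h1 v hv, map_zero, mul_zero]
    · intro h
      exact absurd (Finset.mem_univ _) h
  have h3 := (gc_psi V).mu_spec φ.2
  rw [h2] at h3
  have hV0 : (Nat.card V : ℂ) ≠ 0 := card_ne_zero_complex
  have h4 : (charDegree (φ : N → ℂ) : ℤ) = Nat.card V * mu (psi V) (φ : N → ℂ) := by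
    have h5 : (charDegree (φ : N → ℂ) : ℂ) = Nat.card V * (mu (psi V) (φ : N → ℂ) : ℂ) := by
      rw [← h3]
      field_simp
    exact_mod_cast h5
  -- `2 |V|` divides `|U|`, which divides the degree
  obtain ⟨m, hm⟩ := IsPGroup.iff_card.1 hU
  have hUd : Nat.card U ∣ charDegree (φ : N → ℂ) := by
    have h5 : Nat.card U * U.index = Nat.card N := Subgroup.card_mul_index U
    have hpos : charDegree (φ : N → ℂ) ≠ 0 := by
      intro h6
      have h7 := isIrr_apply_one_ne_zero φ.2
      rw [irr_one_eq_charDegree φ.2, h6] at h7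
      exact h7 (by simp)
    rw [hm, Nat.Prime.pow_dvd_iff_le_factorization Nat.prime_two hpos, ← hd, ← h5, hm]
    rw [Nat.factorization_mul (by positivity) Subgroup.index_ne_zero_of_finite]
    rw [Finsupp.add_apply, Nat.factorization_pow, Finsupp.smul_apply, Nat.prime_two.factorization_self]
    simp
  have h2V : 2 * Nat.card V ∣ Nat.card U := by
    have h5 : Nat.card V * V.relIndex U = Nat.card U := by
      have := Subgroup.card_mul_index (V.subgroupOf U)
      rw [Nat.card_congr (Subgroup.subgroupOfEquivOfLe hVU).toEquiv] at this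
      exact this
    have h6 : V.relIndex U ∣ 2 ^ m := by
      rw [← hm, ← h5]
      exact dvd_mul_left _ _
    obtain ⟨i, -, hi⟩ := (Nat.dvd_prime_pow Nat.prime_two).1 h6
    have hi0 : i ≠ 0 := by
      rintro rfl
      rw [pow_zero, Subgroup.relIndex_eq_one] at hi
      exact hne (le_antisymm hVU hi)
    rw [← h5, mul_comm]
    refine Nat.mul_dvd_mul_left _ ?_
    rw [hi]
    exact dvd_pow_self 2 hi0
  obtain ⟨c, hc⟩ := h2V.trans hUd
  have hVz : (Nat.card V : ℤ) ≠ 0 := by exact_mod_cast Nat.card_pos.ne'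
  refine ⟨c, ?_⟩
  have h7 : (Nat.card V : ℤ) * mu (psi V) (φ : N → ℂ) = Nat.card V * (c + c) := by
    rw [← h4, hc]
    push_cast
    ring
  exact mul_left_cancel₀ hVz h7

end one

end Cfsg.Agent.H694.EB
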