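import Cfsg.Agent.H694.EB.TwoGrp

/-!
# Criterion (T): `evenJ_of_two`
-/

set_option autoImplicit false
set_option linter.unusedSectionVars false
set_option linter.style.haveILetI false

namespace Cfsg.Agent.H694.EB

open Cfsg Cfsg.Agent.Characters Cfsg.Agent.H694 Cfsg.Agent.H684.EB Cfsg.Agent.H610.EB
open Cfsg.Agent.H610 Cfsg.Agent.H611.EB
open scoped ComplexConjugate
open Cfsg.Agent.Characters.Core
open Cfsg.Agent.OddOrderCharacters.NormalInduced (conjFn)
open Cfsg.Agent.OddOrderCharacters.PF9.CliffGen (resTo irr_ind)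
open Cfsg.Agent.Blocks.Local Cfsg.Agent.Blocks.Basic
open Cfsg.Agent.Blocks.Covering (conjIrr conjIrr_apply)
open Cfsg.Agent.OddOrderCharacters.InducedNormal (extendByZero_mem extendByZero_not_mem)

universe u

section chain

variable {G : Type u} [Group G] [Fintype G] {M : Ideal AlgInt} {k : ℕ}
variable (N J : Subgroup G) [hN : N.Normal] [hJ : J.Normal] [Fintype N] [Fintype J] (hNJ : N ≤ J)

/-- The character `psi V` induced to `J`. -/
noncomputable def psiJ (V : Subgroup N) : J → ℂ :=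
  indFun (N.subgroupOf J) (fun x => psi V (Subgroup.subgroupOfEquivOfLe hNJ x))

theorem gc_psiJ (V : Subgroup N) : GC (psiJ N J hNJ V) := by
  haveI : Fintype (N.subgroupOf J) := Fintype.ofFinite _
  exact ((gc_psi V).comp (Subgroup.subgroupOfEquivOfLe hNJ).toMonoidHom).indFun _

theorem psiJ_pow (hk : IsK G k) (V : Subgroup N) (x : J) :
    psiJ N J hNJ V (x ^ k) = psiJ N J hNJ V x := by
  refine indFun_pow _ (hk.sub J) (fun t => ?_) x
  rw [map_pow, psi_pow V (hk.sub N)]

theorem psiJ_inner (V : Subgroup N) {χ : J → ℂ} (hχ : IsClassFunction J χ) :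
    classInner (psiJ N J hNJ V) χ = classInner (psi V) (resTo hNJ χ) := by
  haveI : Fintype (N.subgroupOf J) := Fintype.ofFinite _
  unfold psiJ
  rw [Cfsg.Agent.OddOrderCharacters.Clifford.classInner_indFun _ _ _ hχ]
  exact Cfsg.Agent.H610.EB.classInner_equiv (Subgroup.subgroupOfEquivOfLe hNJ).toEquiv
    (psi V) (resTo hNJ χ)

theorem psiJ_mem (V : Subgroup N) (hinv : ∀ (g : G) (n : N), psi V (MulAut.conjNormal g n) = psi V n)
    {x : J} (hx : (x : G) ∈ N) : psiJ N J hNJ V x = (N.relIndex J : ℂ) * psi V ⟨x, hx⟩ := by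
  unfold psiJ indFun
  have h1 : ∀ y : J, extendByZero (N.subgroupOf J)
      (fun z => psi V (Subgroup.subgroupOfEquivOfLe hNJ z)) (y⁻¹ * x * y) = psi V ⟨x, hx⟩ := by
    intro y
    have h2 : y⁻¹ * x * y ∈ N.subgroupOf J := by
      rw [Subgroup.mem_subgroupOf]
      have h3 := hN.conj_mem _ hx ((y : G)⁻¹)
      rw [inv_inv] at h3
      exact h3
    rw [extendByZero_mem _ _ h2, ← hinv ((y : G)⁻¹) ⟨x, hx⟩]
    congr 1
    apply Subtype.ext
    rw [MulAut.conjNormal_apply, inv_inv]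
    rfl
  rw [Finset.sum_congr rfl fun y _ => h1 y, Finset.sum_const, Finset.card_univ, nsmul_eq_mul,
    ← mul_assoc, ← Nat.card_eq_fintype_card]
  congr 1
  have h4 : Nat.card (N.subgroupOf J) * N.relIndex J = Nat.card J :=
    Subgroup.card_mul_index (N.subgroupOf J)
  have h5 : (Nat.card (N.subgroupOf J) : ℂ) ≠ 0 := card_ne_zero_complex
  rw [← h4]
  push_cast
  field_simp

theorem psiJ_not_mem (V : Subgroup N) {x : J} (hx : (x : G) ∉ N) : psiJ N J hNJ V x = 0 := by
  unfold psiJ indFun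
  rw [Finset.sum_eq_zero, mul_zero]
  intro y _
  refine extendByZero_not_mem _ _ fun h2 => hx ?_
  rw [Subgroup.mem_subgroupOf] at h2
  have h3 := hN.conj_mem _ h2 (y : G)
  have h4 : (y : G) * ((y⁻¹ * x * y : J) : G) * (y : G)⁻¹ = x := by
    push_cast
    group
  rwa [h4] at h3

theorem psiJ_conj (V : Subgroup N) (hinv : ∀ (g : G) (n : N), psi V (MulAut.conjNormal g n) = psi V n)
    (g : G) (x : J) : psiJ N J hNJ V (MulAut.conjNormal g x) = psiJ N J hNJ V x := by
  by_cases hx : (x : G) ∈ N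
  · have hx' : ((MulAut.conjNormal g x : J) : G) ∈ N := by
      rw [MulAut.conjNormal_apply]
      exact hN.conj_mem _ hx g
    rw [psiJ_mem N J hNJ V hinv hx, psiJ_mem N J hNJ V hinv hx', ← hinv g ⟨x, hx⟩]
    congr 2
  · have hx' : ((MulAut.conjNormal g x : J) : G) ∉ N := by
      intro h
      apply hx
      rw [MulAut.conjNormal_apply] at h
      have h1 := hN.conj_mem _ h g⁻¹
      have h2 : g⁻¹ * (g * x * g⁻¹) * g⁻¹⁻¹ = x := by group
      rwa [h2] at h1
    rw [psiJ_not_mem N J hNJ V hx, psiJ_not_mem N J hNJ V hx']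

theorem resTo_psiJ (V : Subgroup N)
    (hinv : ∀ (g : G) (n : N), psi V (MulAut.conjNormal g n) = psi V n) :
    resTo hNJ (psiJ N J hNJ V) = ((N.relIndex J : ℤ) : ℂ) • psi V := by
  funext n
  show psiJ N J hNJ V ⟨n, hNJ n.2⟩ = ((N.relIndex J : ℤ) : ℂ) * psi V n
  rw [psiJ_mem N J hNJ V hinv n.2]
  push_cast
  rfl

include hNJ in
/-- **Criterion (T).** -/
theorem concl_of_two_group (hM : IsPModular 2 M) (hodd : Odd (N.relIndex J))
    (hidx : ∃ j : ℕ, J.index = 2 ^ j) (hk : IsK G k) (hdz : DZ N) (U V : Subgroup N)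
    (hU : IsPGroup 2 U) (hUi : Odd U.index) (hVU : V ≤ U) (hne : V ≠ U)
    (hV : ∀ α : N ≃* N, U.map α.toMonoidHom = U → V.map α.toMonoidHom = V)
    (hcard : Odd (Nat.card (DoubleCoset.Quotient (V : Set N) (V : Set N)))) : Concl M G N k := by
  classical
  haveI : Fact (Nat.Prime 2) := ⟨Nat.prime_two⟩
  haveI := @Fintype.ofFinite (IrrCharacter N) finite_irr
  haveI : Fintype V := Fintype.ofFinite _
  have hinv : ∀ (g : G) (n : N), psi V (MulAut.conjNormal g n) = psi V n := fun g n =>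
    psi_aut V hU hUi hV (MulAut.conjNormal g : MulAut N) n
  -- the index of `V` is even
  have hVi : Even V.index := by
    obtain ⟨m, hm⟩ := IsPGroup.iff_card.1 hU
    have h5 : Nat.card V * V.relIndex U = Nat.card U := by
      have := Subgroup.card_mul_index (V.subgroupOf U)
      rw [Nat.card_congr (Subgroup.subgroupOfEquivOfLe hVU).toEquiv] at this
      exact this
    have h6 : V.relIndex U ∣ 2 ^ m := by
      rw [← hm, ← h5]
      exact dvd_mul_left _ _
    obtain ⟨i, -, hi⟩ := (Nat.dvd_prime_pow Nat.prime_two).1 h6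
    have hi0 : i ≠ 0 := by
      rintro rfl
      rw [pow_zero, Subgroup.relIndex_eq_one] at hi
      exact hne (le_antisymm hVU hi)
    rw [← Subgroup.relIndex_mul_index hVU, hi]
    exact (even_two.pow_of_ne_zero hi0).mul_right _
  -- the count over `N`
  have hc1 : Odd (Nat.card {φ : IrrCharacter N // Even (charDegree (φ : N → ℂ)) ∧
      Odd (mu (psi V) (φ : N → ℂ))}) := by
    refine (odd_card_iff (gc_psi V)
      (a := (Nat.card (DoubleCoset.Quotient (V : Set N) (V : Set N)) : ℤ)) (b := (V.index : ℤ))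
      (by rw [norm_psi]; push_cast; rfl) (by rw [psi_one]; push_cast; rfl)).2 ?_
    have h1 := hcard.add_even hVi
    exact_mod_cast h1
  have hmem : ∀ φ : IrrCharacter N, Odd (mu (psi V) (φ : N → ℂ)) → φ ∈ principalBlock M N := by
    intro φ h1
    by_contra h2
    obtain ⟨h3, h4⟩ := hdz M hM φ h2
    exact (Int.not_even_iff_odd.2 h1) (even_of_defectZero V hU hUi hVU hne φ h3 h4)
  have hc2 : Odd (Nat.card {φ : IrrCharacter N // φ ∈ principalBlock M N ∧
      Even (charDegree (φ : N → ℂ)) ∧ Odd (mu (psi V) (φ : N → ℂ))}) := by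
    have h1 : (fun φ : IrrCharacter N => φ ∈ principalBlock M N ∧
        Even (charDegree (φ : N → ℂ)) ∧ Odd (mu (psi V) (φ : N → ℂ))) =
        fun φ : IrrCharacter N => Even (charDegree (φ : N → ℂ)) ∧ Odd (mu (psi V) (φ : N → ℂ)) := by
      funext φ
      apply propext
      exact ⟨fun h => h.2, fun h => ⟨hmem φ h.2, h⟩⟩
    have h2 := congrArg (fun q : IrrCharacter N → Prop => Nat.card {φ // q φ}) h1
    have h3 : Nat.card {φ : IrrCharacter N // φ ∈ principalBlock M N ∧
      Even (charDegree (φ : N → ℂ)) ∧ Odd (mu (psi V) (φ : N → ℂ))} = Nat.card {φ : IrrCharacter N //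
        Even (charDegree (φ : N → ℂ)) ∧ Odd (mu (psi V) (φ : N → ℂ))} := h2
    rw [h3]
    exact hc1
  -- the multiplicities in the restriction of `psiJ`
  have hmres : ∀ φ : IrrCharacter N, (Odd (mu (resTo hNJ (psiJ N J hNJ V)) (φ : N → ℂ)) ↔
      Odd (mu (psi V) (φ : N → ℂ))) := by
    intro φ
    have h1 : mu (resTo hNJ (psiJ N J hNJ V)) (φ : N → ℂ) =
        (N.relIndex J : ℤ) * mu (psi V) (φ : N → ℂ) := by
      apply mu_eq
      rw [resTo_psiJ N J hNJ V hinv, classInner_smul_left, (gc_psi V).mu_spec φ.2]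
      push_cast
      ring
    rw [h1, Int.odd_mul]
    have h2 : Odd (N.relIndex J : ℤ) := by exact_mod_cast hodd
    exact ⟨fun h => h.2, fun h => ⟨h2, h⟩⟩
  have hπk : ∀ x : J, psiJ N J hNJ V (x ^ k) = psiJ N J hNJ V x := psiJ_pow N J hNJ hk V
  have hfacts : ∀ (χ : IrrCharacter J) (φ : IrrCharacter N),
      (∀ g : J, (χ : J → ℂ) (g ^ k) = (χ : J → ℂ) g) →
      classInner (resTo hNJ (χ : J → ℂ)) (φ : N → ℂ) ≠ 0 →
      ((χ ∈ principalBlock M J ∧ Even (charDegree (χ : J → ℂ)) ∧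
        Odd (mu (psiJ N J hNJ V) (χ : J → ℂ))) ↔
      (φ ∈ principalBlock M N ∧ Even (charDegree (φ : N → ℂ)) ∧ Odd (mu (psi V) (φ : N → ℂ)))) := by
    intro χ φ h2 h4
    obtain ⟨f1, f2, f3⟩ := chain_facts N J hNJ hM hodd hk χ φ h2 h4
    rw [f1, f2, f3 _ (gc_psiJ N J hNJ V) hπk, hmres]
  have h1 := card_up' N J hNJ hodd hk
    (fun φ : IrrCharacter N => φ ∈ principalBlock M N ∧
      Even (charDegree (φ : N → ℂ)) ∧ Odd (mu (psi V) (φ : N → ℂ)))
    (fun χ : IrrCharacter J => χ ∈ principalBlock M J ∧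
      Even (charDegree (χ : J → ℂ)) ∧ Odd (mu (psiJ N J hNJ V) (χ : J → ℂ)))
    (by
      rintro φ ⟨h1, h2, h3⟩
      refine ⟨pw_mem (hk.sub N) h1, by rwa [charDegree_pw (hk.sub N)], ?_⟩
      rwa [mu_pow (hk.sub N) (fun s => psi_pow V (hk.sub N) s)])
    (by
      rintro φ ⟨h1, h2, h3⟩
      refine ⟨pw_mem (hk.sub J) h1, by rwa [charDegree_pw (hk.sub J)], ?_⟩
      rwa [mu_pow (hk.sub J) hπk])
    (fun χ φ h2 _ h4 => hfacts χ φ h2 h4)
  have hc3 : Odd (Nat.card {χ : IrrCharacter J // χ ∈ principalBlock M J ∧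
      Even (charDegree (χ : J → ℂ)) ∧ Odd (mu (psiJ N J hNJ V) (χ : J → ℂ))}) := by
    rw [← Nat.not_even_iff_odd, even_iff_two_dvd, ← ZMod.natCast_eq_zero_iff, ← h1,
      ZMod.natCast_eq_zero_iff, ← even_iff_two_dvd, Nat.not_even_iff_odd]
    exact hc2
  obtain ⟨χ, ⟨hχ1, hχ2, hχ3⟩, hχ4, hχ5⟩ := exists_inv J hidx hk ⊤
    (fun χ : IrrCharacter J => χ ∈ principalBlock M J ∧ Even (charDegree (χ : J → ℂ)) ∧
      Odd (mu (psiJ N J hNJ V) (χ : J → ℂ)))
    (by
      rintro d - φ ⟨h1, h2, h3⟩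
      exact ⟨conjIrr_mem J d h1, by rwa [charDegree_conjIrr], by
        rwa [mu_conj_of_inv J d (psiJ_conj N J hNJ V hinv d)]⟩)
    (by
      rintro φ ⟨h1, h2, h3⟩
      refine ⟨pw_mem (hk.sub J) h1, by rwa [charDegree_pw (hk.sub J)], ?_⟩
      rwa [mu_pow (hk.sub J) hπk]) hc3
  have hχk := (Twist.fixed_iff (hk.sub J).coprime χ).1 hχ5
  have hχinv : ∀ g, conjFn J (χ : J → ℂ) g = χ := fun g =>
    congrArg Subtype.val (hχ4 g (Subgroup.mem_top g))
  -- the Sylow 2-subgroup of `G`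
  set Vh : Subgroup G := V.map N.subtype with hVh
  haveI : Fintype Vh := Fintype.ofFinite _
  have hVhJ : Vh ≤ J := by
    rintro _ ⟨v, _, rfl⟩
    exact hNJ v.2
  obtain ⟨P, hUP⟩ := (hU.map N.subtype).exists_le_sylow
  have hVP : Vh ≤ P := (Subgroup.map_mono hVU).trans hUP
  -- `U = N ∩ P`
  have hUN : ∀ n : N, (n : G) ∈ (P : Subgroup G) → n ∈ U := by
    have hP2 : IsPGroup 2 ((P : Subgroup G).subgroupOf N) := by
      refine P.isPGroup'.of_injective ((N.subtype.comp (Subgroup.subtype _)).codRestrict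
        (P : Subgroup G) (fun x => Subgroup.mem_subgroupOf.1 x.2)) ?_
      intro x y hxy
      have h1 := congrArg Subtype.val hxy
      exact Subtype.ext (Subtype.ext h1)
    have hle : U ≤ (P : Subgroup G).subgroupOf N := by
      intro u hu
      exact Subgroup.mem_subgroupOf.2 (hUP ⟨u, hu, rfl⟩)
    obtain ⟨m, hm⟩ := IsPGroup.iff_card.1 hP2
    have h5 : Nat.card U * U.relIndex ((P : Subgroup G).subgroupOf N) =
        Nat.card ((P : Subgroup G).subgroupOf N) := by
      have := Subgroup.card_mul_index (U.subgroupOf ((P : Subgroup G).subgroupOf N))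
      rw [Nat.card_congr (Subgroup.subgroupOfEquivOfLe hle).toEquiv] at this
      exact this
    have h6 : U.relIndex ((P : Subgroup G).subgroupOf N) ∣ 2 ^ m := by
      rw [← hm, ← h5]
      exact dvd_mul_left _ _
    obtain ⟨i, -, hi⟩ := (Nat.dvd_prime_pow Nat.prime_two).1 h6
    have h7 : U.relIndex ((P : Subgroup G).subgroupOf N) ∣ U.index := by
      rw [← Subgroup.relIndex_mul_index hle]
      exact dvd_mul_right _ _
    have hi0 : i = 0 := by
      by_contra h0
      have h8 : Odd (U.relIndex ((P : Subgroup G).subgroupOf N)) := hUi.of_dvd_nat h7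
      rw [hi] at h8
      exact (Nat.not_even_iff_odd.2 h8) (even_two.pow_of_ne_zero h0)
    rw [hi0, pow_zero, Subgroup.relIndex_eq_one] at hi
    intro n hn
    exact hi (Subgroup.mem_subgroupOf.2 hn)
  have hVn : ∀ d ∈ (P : Subgroup G), ∀ v ∈ Vh, d * v * d⁻¹ ∈ Vh := by
    intro d hd
    have key : ∀ e ∈ (P : Subgroup G), ∀ u ∈ U, (MulAut.conjNormal e : MulAut N) u ∈ U := by
      intro e he u hu
      apply hUN
      rw [MulAut.conjNormal_apply]
      exact (P : Subgroup G).mul_mem ((P : Subgroup G).mul_mem he (hUP ⟨u, hu, rfl⟩))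
        ((P : Subgroup G).inv_mem he)
    have hmapU : U.map (MulAut.conjNormal d : N ≃* N).toMonoidHom = U := by
      ext x
      constructor
      · rintro ⟨u, hu, rfl⟩
        exact key d hd u hu
      · intro hx
        refine ⟨(MulAut.conjNormal d⁻¹ : MulAut N) x, key _ ((P : Subgroup G).inv_mem hd) x hx, ?_⟩
        show (MulAut.conjNormal d : MulAut N) ((MulAut.conjNormal d⁻¹ : MulAut N) x) = x
        rw [← MulAut.mul_apply, ← map_mul, mul_inv_cancel, map_one]
        rfl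
    have hmapV := hV _ hmapU
    rintro _ ⟨v, hv, rfl⟩
    have h9 : (MulAut.conjNormal d : N ≃* N) v ∈ V := by
      rw [← hmapV]
      exact ⟨v, hv, rfl⟩
    refine ⟨_, h9, ?_⟩
    show ((MulAut.conjNormal d v : N) : G) = _
    rw [MulAut.conjNormal_apply]
    rfl
  -- the number of trivial constituents in the restriction to `V`
  let εV : V ≃ Vh := (V.equivMapOfInjective N.subtype N.subtype_injective).toEquiv
  have hin : classInner (fun _ : Vh => (1 : ℂ)) (resTo hVhJ (χ : J → ℂ)) =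
      (mu (psiJ N J hNJ V) (χ : J → ℂ) : ℂ) := by
    rw [← (gc_psiJ N J hNJ V).mu_spec χ.2, psiJ_inner N J hNJ V (isIrr_isClassFunction χ.2)]
    have h10 : IsClassFunction N (resTo hNJ (χ : J → ℂ)) := by
      have h11 : IsCharacter N (resTo hNJ (χ : J → ℂ)) :=
        Cfsg.Agent.OddOrderCharacters.PF9.CliffGen.isCharacter_resTo hNJ (isIrr_isCharacter χ.2)
      exact isCharacter_isClassFunction h11
    rw [psi_inner V h10, ← Cfsg.Agent.H610.EB.classInner_equiv εV]
    rfl
  have hext : ∀ g, CycExt J k (χ : J → ℂ) g := fun g =>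
    cycExt_of_two hk J hidx P Vh hVhJ hVP hVn χ.2 hχinv hin hχ3 g
  obtain ⟨ψ, h1, h2, h3, h4⟩ := of_cyc_inv' hM J hidx hk χ hχ1 hχk hχinv hext hχ2
  refine H611.EB.ConclF.descend N J hNJ (F := fun θ => θ = χ) ⟨ψ, h1, h2, h3, χ, rfl, hχk, h4⟩ ?_
  rintro χ' φ' rfl h5 h6 h7
  have h8 := ((hfacts χ' φ' h5 h6).1 ⟨hχ1, hχ2, hχ3⟩).2.1
  rw [charDegree_def, h7] at h8
  simp at h8

end chain

/-- **Criterion (T).** -/
theorem evenJ_of_two {S : Type u} [Group S] [Finite S] (hdz : DZ S) (U V : Subgroup S)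
    (hU : IsPGroup 2 U) (hUi : Odd U.index) (hVU : V ≤ U) (hne : V ≠ U)
    (hV : ∀ α : S ≃* S, U.map α.toMonoidHom = U → V.map α.toMonoidHom = V)
    (hodd : Odd (Nat.card (DoubleCoset.Quotient (V : Set S) (V : Set S)))) : EvenJ S := by
  classical
  rintro G _ _ N _ _ ⟨e⟩ - J _ hNJ ho hi k hk M hM
  haveI : Fintype J := Fintype.ofFinite _
  haveI : Fintype S := Fintype.ofFinite _
  -- transport
  have hdzN : DZ N := by
    intro iN M' hM' χ hχ
    have hirr : IsIrrCharacter S (fun s => (χ : N → ℂ) (e s)) :=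
      isIrr_comp e.toMonoidHom e.surjective χ.2
    have h1 := hdz M' hM' ⟨fun s => (χ : N → ℂ) (e s), hirr⟩ (fun h => hχ
      ((H611.EB.mem_comp_equiv e χ.2 hirr).1 h))
    refine ⟨fun g hg => ?_, ?_⟩
    · have h2 := h1.1 (e.symm g) (by rwa [MulEquiv.orderOf_eq])
      have h3 : (χ : N → ℂ) (e (e.symm g)) = 0 := h2
      rwa [MulEquiv.apply_symm_apply] at h3
    · rw [← Nat.card_congr e.toEquiv, h1.2]
      have h3 : charDegree (fun s => (χ : N → ℂ) (e s)) = charDegree (χ : N → ℂ) := by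
        rw [charDegree_def, charDegree_def, map_one]
      show (charDegree (fun s => (χ : N → ℂ) (e s))).factorization 2 = _
      rw [h3]
  refine concl_of_two_group N J hNJ hM ho hi hk hdzN (U.map e.toMonoidHom) (V.map e.toMonoidHom)
    (hU.map _) ?_ (Subgroup.map_mono hVU) ?_ ?_ ?_
  · have h1 : (U.map e.toMonoidHom).index = U.index := Subgroup.index_map_equiv U e
    rw [h1]
    exact hUi
  · intro h
    exact hne (Subgroup.map_injective e.injective h)
  · intro α hα
    have h1 := hV ((e.trans α).trans e.symm) (by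
      apply Subgroup.map_injective (f := e.toMonoidHom) e.injective
      rw [Subgroup.map_map]
      rw [Subgroup.map_map] at hα
      conv_rhs => rw [← hα]
      congr 1
      ext x
      simp)
    conv_rhs => rw [← h1]
    rw [Subgroup.map_map, Subgroup.map_map]
    congr 1
    ext x
    simp
  · have h1 : Nat.card (DoubleCoset.Quotient (V : Set S) (V : Set S)) =
        Nat.card (DoubleCoset.Quotient ((V.map e.toMonoidHom : Subgroup N) : Set N)
          ((V.map e.toMonoidHom : Subgroup N) : Set N)) := by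
      refine Nat.card_congr (Quotient.congr e.toEquiv fun a b => ?_)
      show DoubleCoset.setoid (V : Set S) (V : Set S) a b ↔
        DoubleCoset.setoid ((V.map e.toMonoidHom : Subgroup N) : Set N)
          ((V.map e.toMonoidHom : Subgroup N) : Set N) (e a) (e b)
      rw [DoubleCoset.rel_iff, DoubleCoset.rel_iff]
      constructor
      · rintro ⟨x, hx, y, hy, rfl⟩
        exact ⟨e x, ⟨x, hx, rfl⟩, e y, ⟨y, hy, rfl⟩, by rw [map_mul, map_mul]⟩
      · rintro ⟨_, ⟨x, hx, rfl⟩, _, ⟨y, hy, rfl⟩, h⟩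
        refine ⟨x, hx, y, hy, e.injective ?_⟩
        rw [map_mul, map_mul]
        exact h
    rw [← h1]
    exact hodd

end Cfsg.Agent.H694.EB
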