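import Cfsg.Agent.H610.EB.RPhi
import Cfsg.Agent.OddOrderCharacters.InducedNormal

/-!
# Extensions of invariant characters of 2-groups with odd multiplicity
-/

set_option autoImplicit false
set_option linter.unusedSectionVars false
set_option linter.style.haveILetI false

namespace Cfsg.Agent.H694.EB

open Cfsg Cfsg.Agent.Characters Cfsg.Agent.H694 Cfsg.Agent.H684.EB Cfsg.Agent.H610.EB
open Cfsg.Agent.H610
open scoped ComplexConjugate
open Cfsg.Agent.Characters.Core
open Cfsg.Agent.OddOrderCharacters.NormalInduced (conjFn)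
open Cfsg.Agent.OddOrderCharacters.PF9.CliffGen (resTo irr_ind)
open Cfsg.Agent.Blocks.Local Cfsg.Agent.Blocks.Basic
open Cfsg.Agent.Blocks.Covering (conjIrr conjIrr_apply)
open Cfsg.Agent.OddOrderCharacters.InducedNormal (extendByZero_mem extendByZero_not_mem)

universe u

/-- The parity of the number of common constituents of odd multiplicities. -/
theorem odd_card_inner {H : Type u} [Group H] [Fintype H] {π ρ : H → ℂ} (hπ : GC π) (hρ : GC ρ)
    {a : ℤ} (ha : classInner π ρ = a) (hodd : Odd a) :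
    Odd (Nat.card {χ : IrrCharacter H // Odd (mu π (χ : H → ℂ) * mu ρ (χ : H → ℂ))}) := by
  classical
  haveI := @Fintype.ofFinite (IrrCharacter H) finite_irr
  have h1 : a = ∑ φ : IrrCharacter H, mu π (φ : H → ℂ) * mu ρ (φ : H → ℂ) := by
    have h2 := classInner_eq_sum hπ.cf hρ.cf
    rw [ha] at h2
    have h3 : ∀ φ : IrrCharacter H, classInner π (φ : H → ℂ) * conj (classInner ρ (φ : H → ℂ)) =
        ((mu π (φ : H → ℂ) * mu ρ (φ : H → ℂ) : ℤ) : ℂ) := by
      intro φ
      rw [hπ.mu_spec φ.2, hρ.mu_spec φ.2, map_intCast]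
      push_cast
      rfl
    rw [Finset.sum_congr rfl fun φ _ => h3 φ] at h2
    exact_mod_cast h2
  have key : ((Nat.card {χ : IrrCharacter H // Odd (mu π (χ : H → ℂ) * mu ρ (χ : H → ℂ))} : ℕ) :
      ZMod 2) = ((a : ℤ) : ZMod 2) := by
    rw [Nat.card_eq_fintype_card, Fintype.card_subtype, Finset.card_filter, h1]
    rw [Nat.cast_sum, Int.cast_sum]
    refine Finset.sum_congr rfl fun φ _ => ?_
    split_ifs with h
    · obtain ⟨n, hn⟩ := h
      rw [hn]
      push_cast
      have e : ∀ x : ZMod 2, 1 = 2 * x + 1 := by decide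
      exact e _
    · obtain ⟨n, hn⟩ := Int.not_odd_iff_even.1 h
      rw [hn]
      push_cast
      have e : ∀ x : ZMod 2, 0 = x + x := by decide
      exact e _
  rw [← Nat.not_even_iff_odd, even_iff_two_dvd, ← ZMod.natCast_eq_zero_iff, key,
    ZMod.intCast_zmod_eq_zero_iff_dvd]
  intro h
  exact (Int.not_even_iff_odd.2 hodd) (even_iff_two_dvd.2 (by exact_mod_cast h))

/-- The power map on a 2-group. -/
theorem exists_isK (P : Type u) [Group P] (hP : IsPGroup 2 P) : IsK P 1 where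
  two g _ := pow_one g
  odd g hg := by
    obtain ⟨n, hn⟩ := hP g
    obtain ⟨i, -, hi⟩ := (Nat.dvd_prime_pow Nat.prime_two).1 (orderOf_dvd_of_pow_eq_one hn)
    rw [hi] at hg
    have h1 : i = 0 := by
      by_contra h0
      exact (Nat.not_even_iff_odd.2 hg) (even_two.pow_of_ne_zero h0)
    rw [h1, pow_zero, orderOf_eq_one_iff] at hi
    rw [hi]
    simp

/-- **An extension** of an invariant character of a normal subgroup of a 2-group with cyclic
quotient. -/
theorem exists_ext {P : Type u} [Group P] [Fintype P] (hP : IsPGroup 2 P) (D : Subgroup P)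
    [hD : D.Normal] [Fintype D] (hcyc : IsCyclic (P ⧸ D)) {π F : D → ℂ} (hπ : GC π) (hF : GC F)
    (hπi : ∀ (d : P) (s : D), π (MulAut.conjNormal d s) = π s)
    (hFi : ∀ (d : P) (s : D), F (MulAut.conjNormal d s) = F s) {a : ℤ}
    (ha : classInner π F = a) (hodd : Odd a) :
    ∃ η : P → ℂ, IsIrrCharacter P η ∧ Odd (mu (fun d : D => η d) F) := by
  classical
  haveI : Fact (Nat.Prime 2) := ⟨Nat.prime_two⟩
  have hk := exists_isK P hP
  have hcard := odd_card_inner hπ hF ha hodd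
  have hPN : ∃ j : ℕ, D.index = 2 ^ j := by
    obtain ⟨n, hn⟩ := IsPGroup.iff_card.1 hP
    have h1 : D.index ∣ 2 ^ n := by
      rw [← hn]
      exact Subgroup.index_dvd_card D
    obtain ⟨i, -, hi⟩ := (Nat.dvd_prime_pow Nat.prime_two).1 h1
    exact ⟨i, hi⟩
  obtain ⟨ξ, hξ1, hξ2, -⟩ := exists_inv D hPN hk ⊤
    (fun ξ : IrrCharacter D => Odd (mu π (ξ : D → ℂ) * mu F (ξ : D → ℂ)))
    (by
      intro d _ ξ hξ
      rw [mu_conj_of_inv D d (hπi d) ξ, mu_conj_of_inv D d (hFi d) ξ]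
      exact hξ)
    (by
      intro ξ hξ
      have h1 : (Twist.pw (hk.sub D).coprime ξ : D → ℂ) = ξ := by
        funext x
        rw [Twist.pw_apply, pow_one]
      rw [h1]
      exact hξ) hcard
  obtain ⟨χ, hχ, hχξ⟩ := Cfsg.Agent.S0886.result D hcyc (ξ : D → ℂ) ξ.2 (by
    intro g n
    exact congrFun (congrArg Subtype.val (hξ2 g (Subgroup.mem_top g))) n)
  refine ⟨χ, hχ, ?_⟩
  have h2 : (fun d : D => χ d) = (ξ : D → ℂ) := funext hχξ
  rw [h2]
  have h3 : mu (ξ : D → ℂ) F = mu F (ξ : D → ℂ) := by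
    apply mu_eq
    rw [← classInner_conj_symm, hF.mu_spec ξ.2, map_intCast]
  rw [h3]
  exact (Int.odd_mul.1 hξ1).2

section

variable {G : Type u} [Group G] [Fintype G] {k : ℕ}

/-- **The odd extension property from a 2-subgroup** `V` with an odd number of trivial constituents
in the restriction, normal in a Sylow 2-subgroup of `G`. -/
theorem cycExt_of_two (hk : IsK G k) (J : Subgroup G) [hJ : J.Normal] [Fintype J]
    (hidx : ∃ j : ℕ, J.index = 2 ^ j) (P : Sylow 2 G) (V : Subgroup G) [Fintype V] (hVJ : V ≤ J)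
    (hVP : V ≤ P) (hVn : ∀ d ∈ (P : Subgroup G), ∀ v ∈ V, d * v * d⁻¹ ∈ V) {χ : J → ℂ}
    (hχ : IsIrrCharacter J χ) (hinv : ∀ g, conjFn J χ g = χ) {a : ℤ}
    (ha : classInner (fun _ : V => (1 : ℂ)) (resTo hVJ χ) = a) (hodd : Odd a) (g : G) :
    CycExt J k χ g := by
  classical
  haveI : Fact (Nat.Prime 2) := ⟨Nat.prime_two⟩
  set Q : Subgroup G := (P : Subgroup G) ⊓ (J ⊔ Subgroup.zpowers g) with hQ
  letI iQ : Fintype Q := Fintype.ofFinite _
  have hQP : IsPGroup 2 Q := P.isPGroup'.to_le inf_le_left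
  -- `J Q = J⟨g⟩`
  have hJQ : J ⊔ Subgroup.zpowers g ≤ J ⊔ Q := by
    intro x hx
    have h1 : x ∈ J ⊔ (P : Subgroup G) := by
      rw [sup_sylow J hidx P]
      exact Subgroup.mem_top x
    obtain ⟨y, hy, z, hz, rfl⟩ := Subgroup.mem_sup_of_normal_left.1 h1
    have hz' : z ∈ Q := by
      refine ⟨hz, ?_⟩
      have h2 := (J ⊔ Subgroup.zpowers g).mul_mem
        ((J ⊔ Subgroup.zpowers g).inv_mem ((le_sup_left : J ≤ J ⊔ Subgroup.zpowers g) hy)) hx
      rwa [inv_mul_cancel_left] at h2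
    exact (J ⊔ Q).mul_mem ((le_sup_left : J ≤ J ⊔ Q) hy) ((le_sup_right : Q ≤ J ⊔ Q) hz')
  set Uh : Subgroup G := J ⊓ Q with hUh
  letI iU : Fintype Uh := Fintype.ofFinite _
  have hVU : V ≤ Uh := le_inf hVJ (le_inf hVP (hVJ.trans le_sup_left))
  set D : Subgroup Q := J.subgroupOf Q with hD
  letI iD : Fintype D := Fintype.ofFinite _
  haveI hDn : D.Normal := hJ.subgroupOf Q
  have hcyc : IsCyclic (Q ⧸ D) := by
    have hf : ∀ x : Q, (x : G) ∈ J ⊔ Subgroup.zpowers g := fun x => x.2.2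
    let H : Subgroup G := J ⊔ Subgroup.zpowers g
    let f : Q ⧸ D →* H ⧸ J.subgroupOf H :=
      QuotientGroup.map D (J.subgroupOf H) (Subgroup.inclusion (inf_le_right : Q ≤ H)) (fun x hx => hx)
    haveI := isCyclic_sup J g
    refine isCyclic_of_injective f ?_
    rw [injective_iff_map_eq_one]
    intro x
    obtain ⟨y, rfl⟩ := QuotientGroup.mk_surjective x
    intro hx
    rw [QuotientGroup.eq_one_iff]
    have h1 : (QuotientGroup.mk (Subgroup.inclusion (inf_le_right : Q ≤ H) y) : H ⧸ J.subgroupOf H) = 1 := hx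
    have h2 := (QuotientGroup.eq_one_iff (Subgroup.inclusion (inf_le_right : Q ≤ H) y)).1 h1
    exact Subgroup.mem_subgroupOf.2 (Subgroup.mem_subgroupOf.1 h2)
  -- the two characters of `D`
  let f₀ : D →* J :=
    { toFun := fun d => ⟨((d : Q) : G), Subgroup.mem_subgroupOf.1 d.2⟩
      map_one' := rfl
      map_mul' := fun _ _ => rfl }
  set F : D → ℂ := fun d => χ (f₀ d) with hF
  have hFc : IsCharacter D F := isCharacter_comp f₀ (isIrr_isCharacter hχ)
  set VD : Subgroup D := (V.subgroupOf Q).subgroupOf D with hVD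
  letI iV : Fintype VD := Fintype.ofFinite _
  have hmV : ∀ d : D, d ∈ VD ↔ ((d : Q) : G) ∈ V := by
    intro d
    rw [hVD, Subgroup.mem_subgroupOf, Subgroup.mem_subgroupOf]
  let ε : VD ≃ V :=
    { toFun := fun x => ⟨(((x : D) : Q) : G), (hmV _).1 x.2⟩
      invFun := fun v => ⟨⟨⟨v, (hVU v.2).2⟩, Subgroup.mem_subgroupOf.2 (hVJ v.2)⟩, (hmV _).2 v.2⟩
      left_inv := fun x => rfl
      right_inv := fun x => rfl }
  have hone : IsCharacter VD (fun _ => (1 : ℂ)) := isIrr_isCharacter isIrrCharacter_one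
  have hπc : GC (indFun VD (fun _ => (1 : ℂ))) := (GC.of_isCharacter hone).indFun VD
  have hVDn : ∀ (d : Q) (s : D), (s ∈ VD ↔ MulAut.conjNormal d s ∈ VD) := by
    intro d s
    rw [hmV, hmV, MulAut.conjNormal_apply]
    show ((s : Q) : G) ∈ V ↔ (d : G) * ((s : Q) : G) * (d : G)⁻¹ ∈ V
    constructor
    · exact fun h => hVn _ d.2.1 _ h
    · intro h
      have h2 := hVn _ ((P : Subgroup G).inv_mem d.2.1) _ h
      have h3 : (d : G)⁻¹ * ((d : G) * ((s : Q) : G) * (d : G)⁻¹) * ((d : G)⁻¹)⁻¹ = ((s : Q) : G) := by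
        group
      rwa [h3] at h2
  have hπi : ∀ (d : Q) (s : D), indFun VD (fun _ => (1 : ℂ)) (MulAut.conjNormal d s) =
      indFun VD (fun _ => (1 : ℂ)) s := by
    intro d s
    unfold indFun
    congr 1
    refine Fintype.sum_equiv (MulAut.conjNormal d⁻¹ : MulAut D).toEquiv _ _ fun x => ?_
    show extendByZero VD (fun _ => (1 : ℂ)) (x⁻¹ * (MulAut.conjNormal d s) * x) =
      extendByZero VD (fun _ => (1 : ℂ)) (((MulAut.conjNormal d⁻¹ : MulAut D) x)⁻¹ * s *
        (MulAut.conjNormal d⁻¹ : MulAut D) x)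
    have h1 : (MulAut.conjNormal d : MulAut D) (((MulAut.conjNormal d⁻¹ : MulAut D) x)⁻¹ * s *
        (MulAut.conjNormal d⁻¹ : MulAut D) x) = x⁻¹ * (MulAut.conjNormal d s) * x := by
      rw [map_mul, map_mul, map_inv, ← MulAut.mul_apply, ← map_mul, mul_inv_cancel, map_one]
      rfl
    rw [← h1]
    by_cases h2 : ((MulAut.conjNormal d⁻¹ : MulAut D) x)⁻¹ * s *
        (MulAut.conjNormal d⁻¹ : MulAut D) x ∈ VD
    · rw [extendByZero_mem VD _ ((hVDn d _).1 h2), extendByZero_mem VD _ h2]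
    · rw [extendByZero_not_mem VD _ (fun h => h2 ((hVDn d _).2 h)), extendByZero_not_mem VD _ h2]
  have hFi : ∀ (d : Q) (s : D), F (MulAut.conjNormal d s) = F s := by
    intro d s
    have h1 := congrFun (hinv (d : G)) (f₀ s)
    refine Eq.trans ?_ h1
    show χ _ = χ _
    congr 1
  have hin : classInner (indFun VD (fun _ => (1 : ℂ))) F = a := by
    rw [Cfsg.Agent.OddOrderCharacters.Clifford.classInner_indFun _ _ _
      (isCharacter_isClassFunction hFc), ← ha]
    exact Cfsg.Agent.H610.EB.classInner_equiv ε (fun _ : V => (1 : ℂ)) (resTo hVJ χ)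
  obtain ⟨η, hη, hηo⟩ := exists_ext (P := Q) hQP D hcyc hπc (GC.of_isCharacter hFc) hπi hFi hin hodd
  refine CycExt.of_sub hk J g Q inf_le_right hJQ Uh inf_le_left inf_le_right le_rfl
    (GC.of_irr hη) (fun t => by rw [hk.pow_eq hQP t]) hχ ?_
  let ε' : D ≃ Uh :=
    { toFun := fun x => ⟨((x : Q) : G), Subgroup.mem_subgroupOf.1 x.2, (x : Q).2⟩
      invFun := fun x => ⟨⟨x, x.2.2⟩, Subgroup.mem_subgroupOf.2 x.2.1⟩
      left_inv := fun x => rfl
      right_inv := fun x => rfl }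
  have h5 : mu (resTo (inf_le_right : Uh ≤ Q) η) (resTo (inf_le_left : Uh ≤ J) χ) =
      mu (fun d : D => η d) F := by
    rw [mu, mu, ← Cfsg.Agent.H610.EB.classInner_equiv ε']
    rfl
  rw [h5]
  exact hηo

end

end Cfsg.Agent.H694.EB
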